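import Cfsg.Agent.SporadicA.M24Trans
import Cfsg.Agent.OddHalf.Small.Mathieu
import Cfsg.Agent.H660.M24Index
import Cfsg.Agent.H565.Fix
import Cfsg.Agent.H701.Cent

set_option autoImplicit false

/-!
Fixed points of elements of prime order of `M₂₄`, and commuting elements of prime order.
-/

namespace Cfsg.Agent.H701.Golay

open Cfsg Subgroup Cfsg.Agent.H565.Fix

theorem fr : Cfsg.Agent.H660.M24Index.Fr M24 GolayPt where
  deg := by simp [Nat.card_eq_fintype_card]
  ord := Cfsg.Agent.SporadicA.M24Trans.card_M24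
  tr := Cfsg.Agent.SporadicA.M24Trans.five_transitive

/-- an invariant set and its fixed points -/
theorem card_mod {p : ℕ} (hp : p.Prime) {σ : Equiv.Perm GolayPt} (h : σ ^ p = 1)
    {X : Finset GolayPt} (hX : ∀ q ∈ X, σ q ∈ X) : X.card ≡ (X ∩ Fx σ).card [MOD p] := by
  classical
  let τ : Function.End ↥X := fun q => ⟨σ q, hX q q.2⟩
  have hτ' : ∀ (n : ℕ) (q : ↥X), ((τ ^ n) q : GolayPt) = (σ ^ n) q := by
    intro n
    induction n with
    | zero => intro q; rfl
    | succ n ih =>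
      intro q
      rw [pow_succ, pow_succ]
      exact ih (τ q)
  have hτ : τ ^ p ^ 1 = 1 := by
    funext q
    apply Subtype.ext
    rw [pow_one, hτ', h]
    rfl
  have : Fact (Nat.Prime p) := ⟨hp⟩
  have h2 := Equiv.Perm.card_fixedPoints_modEq (p := p) (n := 1) hτ
  have h4 : Fintype.card (Function.fixedPoints τ) = (X ∩ Fx σ).card := by
    rw [← Fintype.card_coe (X ∩ Fx σ)]
    refine Fintype.card_congr ⟨fun p => ⟨(p : ↥X), ?_⟩, fun p => ⟨⟨p, (Finset.mem_inter.1 p.2).1⟩, ?_⟩,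
      fun p => ?_, fun p => ?_⟩
    · rw [Finset.mem_inter, mem_Fx]
      exact ⟨(p : ↥X).2, congrArg Subtype.val p.2⟩
    · exact Subtype.ext (mem_Fx.1 (Finset.mem_inter.1 p.2).2)
    · rfl
    · rfl
  rw [h4, Fintype.card_coe] at h2
  exact h2

/-- commuting elements -/
theorem card_mod_comm {p : ℕ} (hp : p.Prime) {σ τ : Equiv.Perm GolayPt} (h : σ ^ p = 1)
    (hc : σ * τ = τ * σ) : (Fx τ).card ≡ (Fx τ ∩ Fx σ).card [MOD p] := by
  apply card_mod hp h
  intro q hq
  rw [mem_Fx] at hq ⊢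
  have h1 : (τ * σ) q = (σ * τ) q := by rw [hc]
  rw [Equiv.Perm.mul_apply, Equiv.Perm.mul_apply, hq] at h1
  exact h1

/-- numbers of fixed points -/
theorem card_Fx {r : ℕ} (hr : r.Prime) {σ : Equiv.Perm GolayPt} (hσ : σ ∈ M24)
    (ho : orderOf σ = r) {n : ℕ} (hn : n ≤ 5) {m : ℕ}
    (hm : m * Nat.factorial 24 = 244823040 * Nat.factorial (24 - n)) (hrm : ¬ r ∣ m) :
    (Fx σ).card < n ∧ (Fx σ).card ≡ 24 [MOD r] := by
  classical
  have : Fact r.Prime := ⟨hr⟩
  let a : (⊤ : Subgroup M24) := ⟨⟨σ, hσ⟩, mem_top _⟩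
  have ha : orderOf a = r := by
    rw [← ho, ← orderOf_coe a, ← orderOf_coe (a : M24)]
  have h1 := fr.fixed ha hn hm hrm
  have h2 : (MulAction.fixedPoints (zpowers a) GolayPt).ncard = (Fx σ).card := by
    rw [← Set.ncard_coe_finset]
    congr 1
    ext q
    rw [Finset.mem_coe, mem_Fx, MulAction.mem_fixedPoints]
    constructor
    · intro h
      exact h ⟨a, mem_zpowers a⟩
    · rintro h ⟨g, hg⟩
      obtain ⟨k, rfl⟩ := mem_zpowers_iff.1 hg
      have h3 : (a ^ k) ∈ MulAction.stabilizer (⊤ : Subgroup M24) q :=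
        zpow_mem (show a ∈ MulAction.stabilizer (⊤ : Subgroup M24) q from h) k
      exact h3
  rw [h2] at h1
  exact h1

theorem card_Fx_seven {σ : Equiv.Perm GolayPt} (hσ : σ ∈ M24) (ho : orderOf σ = 7) :
    (Fx σ).card = 3 := by
  obtain ⟨h1, h2⟩ := card_Fx (by norm_num) hσ ho (n := 4) (by norm_num) (m := 960)
    (by decide +kernel) (by norm_num)
  unfold Nat.ModEq at h2
  omega

theorem card_Fx_eleven {σ : Equiv.Perm GolayPt} (hσ : σ ∈ M24) (ho : orderOf σ = 11) :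
    (Fx σ).card = 2 := by
  obtain ⟨h1, h2⟩ := card_Fx (by norm_num) hσ ho (n := 3) (by norm_num) (m := 20160)
    (by decide +kernel) (by norm_num)
  unfold Nat.ModEq at h2
  omega

theorem card_Fx_23 {σ : Equiv.Perm GolayPt} (hσ : σ ∈ M24) (ho : orderOf σ = 23) :
    (Fx σ).card = 1 := by
  obtain ⟨h1, h2⟩ := card_Fx (by norm_num) hσ ho (n := 2) (by norm_num) (m := 443520)
    (by decide +kernel) (by norm_num)
  unfold Nat.ModEq at h2
  omega

theorem card_Fx_two {σ : Equiv.Perm GolayPt} (hσ : σ ∈ M24) (ho : orderOf σ = 2)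
    {p : GolayPt} (hp : σ p = p) : (Fx σ).card = 8 := by
  obtain ⟨o, ho, h⟩ := Cfsg.Agent.OddHalf.Small.Mathieu.exists_fix_octad hσ
    (by rw [← pow_two, ← ho, pow_orderOf_eq_one])
    (fun h => by rw [h, orderOf_one] at ho; norm_num at ho) hp
  have : Fx σ = o := by
    ext q
    rw [mem_Fx, h]
  rw [this]
  exact ho.2

theorem eq_one_of_card_Fx {σ : Equiv.Perm GolayPt} (h : (Fx σ).card = 24) : σ = 1 := by
  have h1 : Fx σ = Finset.univ := by
    rw [← Finset.card_eq_iff_eq_univ, h]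
    rfl
  ext q
  have : q ∈ Fx σ := by rw [h1]; exact Finset.mem_univ q
  rw [mem_Fx.1 this]
  rfl

end Cfsg.Agent.H701.Golay
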