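import Cfsg.Agent.H701.Ex

/-!
# Conjugacy invariants of unipotent matrices
-/

set_option autoImplicit false
set_option linter.all false

namespace Cfsg.Agent.H701

open Matrix

variable {ι F : Type*} [Fintype ι] [DecidableEq ι] [Field F]

/-- rank at most one -/
def Rk1 (N : Matrix ι ι F) : Prop := ∃ u v : ι → F, N = Matrix.vecMulVec u v

theorem Rk1.conj {x y N M : Matrix ι ι F} (h : x * N * y = M) (hN : Rk1 N) : Rk1 M := by
  obtain ⟨u, v, rfl⟩ := hN
  refine ⟨x *ᵥ u, v ᵥ* y, ?_⟩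
  rw [← h, Matrix.mul_vecMulVec, Matrix.vecMulVec_mul]

theorem Rk1.minor {N : Matrix ι ι F} (hN : Rk1 N) (i j k l : ι) :
    N i j * N k l = N i l * N k j := by
  obtain ⟨u, v, rfl⟩ := hN
  simp only [Matrix.vecMulVec_apply]
  ring

theorem rk1_single (i j : ι) (a : F) : Rk1 (Matrix.single i j a) := by
  refine ⟨Pi.single i a, Pi.single j 1, ?_⟩
  ext k l
  rw [Matrix.vecMulVec_apply, Matrix.single_apply, Pi.single_apply, Pi.single_apply]
  by_cases hk : k = i
  · by_cases hl : l = j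
    · simp [hk, hl]
    · simp [hk, hl, Ne.symm hl]
  · simp [hk, Ne.symm hk]

theorem not_rk1_add {i j k l : ι} (hik : i ≠ k) (hjl : j ≠ l) {a b : F} (ha : a ≠ 0) (hb : b ≠ 0) :
    ¬ Rk1 (Matrix.single i j a + Matrix.single k l b) := by
  intro h
  have := h.minor i j k l
  simp [hik, hik.symm, hjl, hjl.symm, ha, hb] at this

/-- conjugate elements of a group of matrices, the matrices minus one -/
theorem conj_sub_one {Q : Type*} [Group Q] (f : Q →* Matrix ι ι F) {g h : Q} (hc : IsConj g h) :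
    ∃ x y : Matrix ι ι F, x * y = 1 ∧ y * x = 1 ∧ x * (f g - 1) * y = f h - 1 := by
  obtain ⟨c, hc⟩ := isConj_iff.1 hc
  have h1 : f c * f c⁻¹ = 1 := by rw [← map_mul, mul_inv_cancel, map_one]
  have h2 : f c⁻¹ * f c = 1 := by rw [← map_mul, inv_mul_cancel, map_one]
  refine ⟨f c, f c⁻¹, h1, h2, ?_⟩
  rw [mul_sub, sub_mul, mul_one, h1, ← map_mul, ← map_mul, hc]

theorem conj_pow_mat {x y N M : Matrix ι ι F} (hyx : y * x = 1) (h : x * N * y = M) :
    ∀ n : ℕ, n ≠ 0 → x * N ^ n * y = M ^ n := by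
  intro n hn
  induction n with
  | zero => exact absurd rfl hn
  | succ n ih =>
    rcases Nat.eq_zero_or_pos n with rfl | hpos
    · simpa using h
    · rw [pow_succ, pow_succ, ← ih hpos.ne', ← h]
      calc x * (N ^ n * N) * y = x * N ^ n * 1 * N * y := by
            rw [mul_one]; simp only [Matrix.mul_assoc]
        _ = x * N ^ n * y * (x * N * y) := by
            rw [← hyx]; simp only [Matrix.mul_assoc]

theorem rk1_iff_of_isConj {Q : Type*} [Group Q] (f : Q →* Matrix ι ι F) {g h : Q}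
    (hc : IsConj g h) : Rk1 (f g - 1) → Rk1 (f h - 1) := by
  obtain ⟨x, y, -, -, e⟩ := conj_sub_one f hc
  exact Rk1.conj e

theorem pow_eq_zero_of_isConj {Q : Type*} [Group Q] (f : Q →* Matrix ι ι F) {g h : Q}
    (hc : IsConj g h) {n : ℕ} (hn : n ≠ 0) (h0 : (f g - 1) ^ n = 0) : (f h - 1) ^ n = 0 := by
  obtain ⟨x, y, -, hyx, e⟩ := conj_sub_one f hc
  rw [← conj_pow_mat hyx e n hn, h0, mul_zero, zero_mul]

/-- in characteristic `p` an element `g` with `(g - 1)^n = 0`, `n ≤ p^a`, has `g^(p^a) = 1` -/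
theorem pow_char_eq_one {Q : Type*} [Group Q] (f : Q →* Matrix ι ι F)
    (hf : Function.Injective f) {p : ℕ} [Fact p.Prime] [CharP F p] {g : Q} {n a : ℕ}
    (h0 : (f g - 1) ^ n = 0) (hn : n ≤ p ^ a) : g ^ p ^ a = 1 := by
  apply hf
  rw [map_one, map_pow]
  haveI : Nonempty ι ∨ IsEmpty ι := by
    rcases isEmpty_or_nonempty ι with h | h
    · exact Or.inr h
    · exact Or.inl h
  rcases this with hne | hem
  · haveI : CharP (Matrix ι ι F) p := Matrix.charP p
    have e : f g = (f g - 1) + 1 := by abel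
    rw [e, add_pow_char_pow_of_commute (R := Matrix ι ι F) (p := p) (n := a) (Commute.one_right _),
      one_pow, pow_eq_zero_of_le hn h0, zero_add]
  · exact Subsingleton.elim _ _

/-- `g` has order `p` if `(g-1)^n = 0`, `n ≤ p`, `g ≠ 1` -/
theorem orderOf_eq_char {Q : Type*} [Group Q] (f : Q →* Matrix ι ι F)
    (hf : Function.Injective f) {p : ℕ} [Fact p.Prime] [CharP F p] {g : Q} {n : ℕ}
    (h0 : (f g - 1) ^ n = 0) (hn : n ≤ p) (hg : f g - 1 ≠ 0) : orderOf g = p := by
  apply orderOf_eq_prime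
  · have := pow_char_eq_one f hf (a := 1) h0 (by simpa using hn)
    simpa using this
  · rintro rfl
    apply hg
    rw [map_one, sub_self]

end Cfsg.Agent.H701
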