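import Cfsg.Agent.H701.DimThree

/-!
# `Ex2` for `PSL_3(q)`, `q ≥ 3`
-/

set_option autoImplicit false
set_option linter.all false

namespace Cfsg.Agent.H701

open Matrix

namespace Three

variable {F Q : Type*} [Field F] [Group Q]

/-- `SL₃` as a group of matrices with scalar centre -/
def slRep (F : Type*) [Field F] : Rep (Matrix.SpecialLinearGroup (Fin 3) F) F where
  f := slMat (Fin 3) F
  inj := slMat_injective
  cen := by
    intro z hz
    obtain ⟨r, hr, hz⟩ := Matrix.SpecialLinearGroup.mem_center_iff.1 hz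
    refine ⟨r, by simpa using hr, ?_⟩
    have : slMat (Fin 3) F z = Matrix.scalar (Fin 3) r := hz.symm
    rw [this]
    ext i j
    simp [Matrix.scalar_apply, Matrix.diagonal_apply, Matrix.one_apply]

theorem Rep.noP_two (R : Rep Q F) : NoP 2 Q := by
  intro z hz h2
  obtain ⟨c, hc3, hcf⟩ := R.cen z hz
  have h3 : z ^ 3 = 1 := by
    apply R.inj
    rw [map_pow, hcf, smul_pow, hc3, one_pow, one_smul, map_one]
  have : z ^ 3 = z ^ 2 * z := by rw [pow_succ]
  rw [h3, h2, one_mul] at this
  exact this.symm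

/-- conjugate elements have the same trace -/
theorem trace_eq (R : Rep Q F) {g h : Q} (hc : IsConj g h) :
    (R.f g).trace = (R.f h).trace := by
  obtain ⟨c, rfl⟩ := isConj_iff.1 hc
  rw [map_mul, map_mul, Matrix.trace_mul_comm, ← Matrix.mul_assoc, ← map_mul, inv_mul_cancel,
    map_one, Matrix.one_mul]

/-- a pair of elements of order `p`, and a pair of elements of order 8 -/
theorem ex2_of_eight [Finite Q] (R : Rep Q F) {p : ℕ} (hp : p.Prime) (hp2 : p ≠ 2)
    (hZ : NoP p Q) {y₁ y₂ g h : Q} (o1 : orderOf y₁ = p) (o2 : orderOf y₂ = p)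
    (hy : ¬ IsConj y₁ y₂) (g8 : orderOf g = 8) (h8 : orderOf h = 8)
    (ht : (R.f g).trace ≠ (R.f h).trace) : Ex2 (Q ⧸ Subgroup.center Q) := by
  have q1 : y₁ ^ p ^ 1 = 1 := by rw [pow_one, ← o1, pow_orderOf_eq_one]
  have q2 : y₂ ^ p ^ 1 = 1 := by rw [pow_one, ← o2, pow_orderOf_eq_one]
  have q3 : g ^ 2 ^ 3 = 1 := by
    rw [show (2 : ℕ) ^ 3 = 8 by norm_num, ← g8, pow_orderOf_eq_one]
  have q4 : h ^ 2 ^ 3 = 1 := by
    rw [show (2 : ℕ) ^ 3 = 8 by norm_num, ← h8, pow_orderOf_eq_one]
  refine Or.inr ⟨y₁, y₂, g, h, ?_, ?_, ?_, ?_, ?_⟩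
  · rw [orderOf_mk hZ q1, orderOf_mk hZ q2, o1, o2]
  · rw [orderOf_mk R.noP_two q3, orderOf_mk R.noP_two q4, g8, h8]
  · rw [orderOf_mk hZ q1, orderOf_mk R.noP_two q3, o1, g8]
    rintro rfl
    norm_num at hp
  · exact fun hc => hy (isConj_of_mk hZ q1 q2 hc)
  · exact fun hc => ht (trace_eq R (isConj_of_mk R.noP_two q3 q4 hc))

/-- the block matrix `(a b; c d) ⊕ e` -/
def blk (a b c d e : F) : Matrix (Fin 3) (Fin 3) F := !![a, b, 0; c, d, 0; 0, 0, e]

theorem blk_mul (a b c d e a' b' c' d' e' : F) :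
    blk a b c d e * blk a' b' c' d' e' =
      blk (a * a' + b * c') (a * b' + b * d') (c * a' + d * c') (c * b' + d * d') (e * e') := by
  ext i j
  fin_cases i <;> fin_cases j <;> simp [blk, Matrix.mul_apply, Fin.sum_univ_three]

theorem blk_one : blk (1 : F) 0 0 1 1 = 1 := by
  ext i j
  fin_cases i <;> fin_cases j <;> simp [blk]

theorem det_blk (a b c d e : F) : (blk a b c d e).det = (a * d - b * c) * e := by
  rw [blk, Matrix.det_fin_three]
  simp
  ring

theorem trace_blk (a b c d e : F) : (blk a b c d e).trace = a + d + e := by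
  rw [blk, Matrix.trace_fin_three]
  simp

/-- an element with block `A`, `A² = t A - δ`, `A⁴ = -1` has order 8 -/
theorem orderOf_eight (R : Rep Q F) (h2 : (2 : F) ≠ 0) {g : Q} {a b c d e : F}
    (hg : R.f g = blk a b c d e)
    (h4 : blk a b c d e * blk a b c d e * (blk a b c d e * blk a b c d e) = blk (-1) 0 0 (-1) 1) :
    orderOf g = 8 := by
  have e4 : R.f (g ^ 4) = blk (-1) 0 0 (-1) 1 := by
    rw [← h4, map_pow, hg]
    simp only [pow_succ, pow_zero, one_mul, Matrix.mul_assoc]
  have : orderOf g = 2 ^ (2 + 1) := by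
    apply orderOf_eq_prime_pow
    · intro hcon
      have h5 : R.f (g ^ 4) = 1 := by
        rw [show (4 : ℕ) = 2 ^ 2 by norm_num, hcon, map_one]
      rw [e4, ← blk_one] at h5
      have h6 := congrFun (congrFun h5 0) 0
      simp [blk] at h6
      apply h2
      have : (1 : F) + 1 = 0 := by
        nth_rewrite 1 [← h6]
        ring
      rwa [one_add_one_eq_two] at this
    · apply R.inj
      rw [show (2 : ℕ) ^ (2 + 1) = 4 * 2 by norm_num, pow_mul, map_pow, e4, pow_two, blk_mul,
        map_one, ← blk_one]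
      congr 1 <;> ring
  simpa using this

/-- elements of order 8 in `SL₃`, odd characteristic -/
theorem exists_eight_sl [Finite F] (h2 : (2 : F) ≠ 0) :
    ∃ g h : Matrix.SpecialLinearGroup (Fin 3) F, orderOf g = 8 ∧ orderOf h = 8 ∧
      ((slRep F).f g).trace ≠ ((slRep F).f h).trace := by
  classical
  haveI : Fintype F := Fintype.ofFinite F
  -- `t² = 2 δ`, `δ² = 1`, or `t = 0`, `δ² = -1`
  have build : ∀ (t δ : F) (hδ : δ * δ⁻¹ = 1)
      (h4 : (t * t - 2 * δ) * t = 0) (h4' : -(t * t) * δ + δ * δ = -1) (hd4 : δ ^ 4 = 1),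
      ∃ g : Matrix.SpecialLinearGroup (Fin 3) F, orderOf g = 8 ∧
        ((slRep F).f g).trace = t + δ⁻¹ := by
    intro t δ hδ h4 h4' hd4
    have hdet : (blk 0 (-δ) 1 t δ⁻¹).det = 1 := by
      rw [det_blk]
      linear_combination hδ
    refine ⟨⟨blk 0 (-δ) 1 t δ⁻¹, hdet⟩, ?_, ?_⟩
    · apply orderOf_eight (slRep F) h2 (g := ⟨blk 0 (-δ) 1 t δ⁻¹, hdet⟩) rfl
      simp only [blk_mul]
      have hi : δ⁻¹ ^ 4 = 1 := by rw [inv_pow, hd4, inv_one]
      congr 1
      · linear_combination h4'
      · linear_combination (-δ) * h4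
      · linear_combination h4
      · linear_combination t * h4 + h4'
      · linear_combination hi
    · show (blk 0 (-δ) 1 t δ⁻¹).trace = _
      rw [trace_blk, zero_add]
  have key : ∀ t δ : F, t ≠ 0 → t * t = 2 * δ → δ * δ = 1 →
      ∃ g h : Matrix.SpecialLinearGroup (Fin 3) F, orderOf g = 8 ∧ orderOf h = 8 ∧
        ((slRep F).f g).trace ≠ ((slRep F).f h).trace := by
    intro t δ ht htt hδ
    have hδ0 : δ ≠ 0 := by
      rintro rfl
      rw [mul_zero] at hδ
      exact zero_ne_one hδ
    have hd4 : δ ^ 4 = 1 := by linear_combination (δ * δ + 1) * hδ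
    obtain ⟨g, hg, hgt⟩ := build t δ (mul_inv_cancel₀ hδ0) (by rw [htt]; ring)
      (by linear_combination (-δ) * htt - hδ) hd4
    obtain ⟨h, hh, hht⟩ := build (-t) δ (mul_inv_cancel₀ hδ0) (by rw [neg_mul_neg, htt]; ring)
      (by linear_combination (-δ) * htt - hδ) hd4
    refine ⟨g, h, hg, hh, ?_⟩
    rw [hgt, hht]
    intro he
    have : 2 * t = 0 := by linear_combination he
    rcases mul_eq_zero.1 this with h | h
    · exact h2 h
    · exact ht h
  have h20 : (2 : F) ≠ 0 := h2
  by_cases s2 : IsSquare (2 : F)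
  · obtain ⟨t, ht⟩ := s2
    refine key t 1 ?_ (by rw [mul_one]; exact ht.symm) (by ring)
    rintro rfl
    exact h2 (by rw [ht]; ring)
  · by_cases s1 : IsSquare (-1 : F)
    · obtain ⟨i, hi⟩ := s1
      have hi0 : i ≠ 0 := by
        rintro rfl
        rw [mul_zero] at hi
        exact neg_ne_zero.2 one_ne_zero hi
      have hi4 : i ^ 4 = 1 := by linear_combination (-(i * i) + 1) * hi
      obtain ⟨g, hg, hgt⟩ := build 0 i (mul_inv_cancel₀ hi0) (by ring)
        (by linear_combination -hi) hi4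
      obtain ⟨h, hh, hht⟩ := build 0 (-i) (mul_inv_cancel₀ (neg_ne_zero.2 hi0)) (by ring)
        (by linear_combination -hi) (by linear_combination hi4)
      refine ⟨g, h, hg, hh, ?_⟩
      rw [hgt, hht]
      intro he
      have h3 : i⁻¹ * 2 = 0 := by
        have : (-i)⁻¹ = -i⁻¹ := by rw [inv_neg]
        rw [this] at he
        linear_combination he
      rcases mul_eq_zero.1 h3 with h | h
      · exact inv_ne_zero hi0 h
      · exact h2 h
    · -- `-2` is a square
      have : IsSquare (-2 : F) := by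
        have e : (-2 : F) = 2 * (-1) := by ring
        rw [e]
        have hq : ringChar F ≠ 2 := by
          intro hr
          apply h2
          have := ringChar.Nat.cast_ringChar (R := F)
          rw [hr] at this
          simpa using this
        have hn1 := (quadraticChar_neg_one_iff_not_isSquare (F := F) (a := 2)).2 s2
        have hn2 := (quadraticChar_neg_one_iff_not_isSquare (F := F) (a := -1)).2 s1
        have h3 : quadraticChar F (2 * (-1)) = 1 := by
          rw [map_mul, hn1, hn2]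
          norm_num
        have hne : (2 * (-1) : F) ≠ 0 := by
          intro h
          apply h2
          linear_combination -h
        exact (quadraticChar_one_iff_isSquare hne).1 h3
      obtain ⟨t, ht⟩ := this
      refine key t (-1) ?_ (by rw [← ht]; ring) (by ring)
      rintro rfl
      exact h2 (by linear_combination -ht)

theorem ex2_psl_three_odd [Finite F] (h2 : (2 : F) ≠ 0) :
    Ex2 (Matrix.SpecialLinearGroup (Fin 3) F ⧸
      Subgroup.center (Matrix.SpecialLinearGroup (Fin 3) F)) := by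
  obtain ⟨p, hp⟩ := CharP.exists F
  haveI : Fact p.Prime := ⟨CharP.char_is_prime F p⟩
  have hpp : p.Prime := Fact.out
  have hp2 : p ≠ 2 := by
    rintro rfl
    apply h2
    have := CharP.cast_eq_zero F 2
    simpa using this
  have hp3 : 3 ≤ p := by
    have := hpp.two_le
    omega
  have h01 : (0 : Fin 3) ≠ 1 := by decide
  have h12 : (1 : Fin 3) ≠ 2 := by decide
  have h02 : (0 : Fin 3) ≠ 2 := by decide
  set f := slMat (Fin 3) F with hf
  have n1 : f (tv 0 1 h01 1) - 1 = Matrix.single 0 1 1 := by rw [slMat_tv]; abel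
  have n3 := y3_sub (F := F) h01 h12 h02
  rw [← hf] at n3
  have s1 : (f (tv 0 1 h01 1) - 1) ^ 2 = 0 := by
    rw [n1, pow_two, Matrix.single_mul_single_of_ne _ _ _ _ h01.symm]
  have s3 : (f (y3 h01 h12) - 1) ^ 2 = Matrix.single 0 2 1 := by
    rw [n3, pow_two, mul_add, add_mul, add_mul, Matrix.single_mul_single_of_ne _ _ _ _ h01.symm,
      Matrix.single_mul_single_same,
      Matrix.single_mul_single_of_ne _ _ _ _ h02.symm,
      Matrix.single_mul_single_of_ne _ _ _ _ h12.symm]
    simp
  have s3' : (f (y3 h01 h12) - 1) ^ 3 = 0 := by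
    rw [pow_succ, s3, n3, mul_add, Matrix.single_mul_single_of_ne _ _ _ _ h02.symm,
      Matrix.single_mul_single_of_ne _ _ _ _ h12.symm]
    simp
  have sq3 : (f (y3 h01 h12) - 1) ^ 2 ≠ 0 := by
    rw [s3]; exact single_one_ne
  have o1 : orderOf (tv 0 1 h01 (1 : F)) = p :=
    orderOf_eq_char f slMat_injective s1 hpp.two_le (by rw [n1]; exact single_one_ne)
  have o3 : orderOf (y3 (F := F) h01 h12) = p :=
    orderOf_eq_char f slMat_injective s3' hp3 (fun h0 => sq3 (by rw [h0]; simp))
  obtain ⟨g, h, hg, hh, ht⟩ := exists_eight_sl (F := F) h2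
  exact ex2_of_eight (slRep F) hpp hp2 noP_sl o1 o3
    (fun hc => sq3 (pow_eq_zero_of_isConj f hc (n := 2) (by norm_num) s1)) hg hh ht

end Three

end Cfsg.Agent.H701
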