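import Cfsg.Agent.H701.PslThree

/-!
# `Ex2` for `PSL_3(q)`, `q ≥ 4` even
-/

set_option autoImplicit false
set_option linter.all false

namespace Cfsg.Agent.H701

open Matrix

namespace Three

variable {F Q : Type*} [Field F] [Group Q]

/-- a generator of the multiplicative group -/
theorem exists_gen (F : Type*) [Field F] [Finite F] :
    ∃ w : F, w ≠ 0 ∧ orderOf w = Nat.card F - 1 := by
  obtain ⟨g, hg⟩ := IsCyclic.exists_generator (α := Fˣ)
  refine ⟨(g : F), g.ne_zero, ?_⟩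
  rw [orderOf_units, orderOf_eq_card_of_forall_mem_zpowers hg, Nat.card_units]

theorem ex2_psl_three_big [Finite F] (hodd : Odd (Nat.card F - 1)) (h8 : 8 ≤ Nat.card F) :
    Ex2 (Matrix.SpecialLinearGroup (Fin 3) F ⧸
      Subgroup.center (Matrix.SpecialLinearGroup (Fin 3) F)) := by
  obtain ⟨w, hw0, hw⟩ := exists_gen F
  have hdet : (Matrix.diagonal ![1, w, w⁻¹]).det = 1 := by
    rw [Matrix.det_diagonal, Fin.prod_univ_three]
    simp [hw0]
  exact ex2_diag (slRep F) (g := ⟨Matrix.diagonal ![1, w, w⁻¹], hdet⟩) (w := w)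
    (by rw [hw]; exact hodd) (by rw [hw]; omega) rfl

/-- `det (v, Nv, N²v)` -/
def cube (N : Matrix (Fin 3) (Fin 3) F) (v : Fin 3 → F) : F :=
  (Matrix.of ![v, N *ᵥ v, N *ᵥ (N *ᵥ v)]).det

theorem cube_conj {x y N M : Matrix (Fin 3) (Fin 3) F} (hyx : y * x = 1) (h : x * N * y = M)
    (hx : x.det = 1) (v : Fin 3 → F) : cube M (x *ᵥ v) = cube N v := by
  have e1 : M *ᵥ (x *ᵥ v) = x *ᵥ (N *ᵥ v) := by
    rw [← h, Matrix.mulVec_mulVec, Matrix.mul_assoc, hyx, mul_one, Matrix.mulVec_mulVec]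
  have e2 : M *ᵥ (M *ᵥ (x *ᵥ v)) = x *ᵥ (N *ᵥ (N *ᵥ v)) := by
    rw [e1, ← h, Matrix.mulVec_mulVec, Matrix.mul_assoc, hyx, mul_one, ← Matrix.mulVec_mulVec]
  rw [cube, cube, e2, e1]
  have : Matrix.of ![x *ᵥ v, x *ᵥ (N *ᵥ v), x *ᵥ (N *ᵥ (N *ᵥ v))] =
      Matrix.of ![v, N *ᵥ v, N *ᵥ (N *ᵥ v)] * xᵀ := by
    ext i j
    rw [Matrix.mul_apply]
    simp only [Matrix.transpose_apply]
    fin_cases i <;>
      simp only [Matrix.of_apply, Matrix.cons_val_zero, Matrix.cons_val_one, Matrix.cons_val,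
        Fin.zero_eta, Fin.mk_one, Fin.reduceFinMk] <;>
      (simp only [Matrix.mulVec, dotProduct]; exact Finset.sum_congr rfl fun _ _ => mul_comm _ _)
  rw [this, det_mul, det_transpose, hx, mul_one]

/-- `1 + E₀₁ + c E₁₂` -/
def uc (c : F) : Matrix.SpecialLinearGroup (Fin 3) F :=
  ⟨!![1, 1, 0; 0, 1, c; 0, 0, 1], by rw [Matrix.det_fin_three]; simp⟩

theorem uc_sub (c : F) : (slRep F).f (uc c) - 1 = !![0, 1, 0; 0, 0, c; 0, 0, 0] := by
  show (!![1, 1, 0; 0, 1, c; 0, 0, 1] : Matrix (Fin 3) (Fin 3) F) - 1 = _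
  ext i j
  fin_cases i <;> fin_cases j <;> simp

theorem cube_uc (c : F) (v : Fin 3 → F) :
    cube ((slRep F).f (uc c) - 1) v = - (c ^ 2 * v 2 ^ 3) := by
  rw [uc_sub, cube, Matrix.det_fin_three]
  simp [Matrix.mulVec, dotProduct, Fin.sum_univ_three]
  ring

theorem uc_sq (c : F) : ((slRep F).f (uc c) - 1) ^ 2 = !![0, 0, c; 0, 0, 0; 0, 0, 0] := by
  rw [uc_sub, pow_two]
  ext i j
  fin_cases i <;> fin_cases j <;> simp [Matrix.mul_apply, Fin.sum_univ_three]

theorem uc_cube (c : F) : ((slRep F).f (uc c) - 1) ^ 3 = 0 := by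
  rw [pow_succ, uc_sq, uc_sub]
  ext i j
  fin_cases i <;> fin_cases j <;> simp [Matrix.mul_apply, Fin.sum_univ_three]

theorem orderOf_uc [CharP F 2] {c : F} (hc : c ≠ 0) : orderOf (uc c) = 4 := by
  haveI : Fact (Nat.Prime 2) := ⟨Nat.prime_two⟩
  haveI : CharP (Matrix (Fin 3) (Fin 3) F) 2 := Matrix.charP 2
  have : orderOf (uc c) = 2 ^ (1 + 1) := by
    apply orderOf_eq_prime_pow
    · intro hcon
      have h2 : (slRep F).f (uc c) ^ 2 = 1 := by
        rw [← map_pow, show (uc c) ^ 2 = 1 by simpa using hcon, map_one]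
      have h3 := sub_pow_char_of_commute (R := Matrix (Fin 3) (Fin 3) F) (p := 2)
        (Commute.one_right ((slRep F).f (uc c)))
      rw [h2, one_pow, sub_self, uc_sq] at h3
      have := congrFun (congrFun h3 0) 2
      simp at this
      exact hc this
    · exact pow_char_eq_one (slRep F).f (slRep F).inj (uc_cube c) (by norm_num)
  simpa using this

/-- in a field with four elements, `uc c` are not conjugate -/
theorem uc_inj {c d : F} (hF : ∀ x : F, x ≠ 0 → x ^ 3 = 1) [CharP F 2] (hc0 : c ≠ 0)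
    (hc : IsConj (uc c) (uc d)) : c = d := by
  obtain ⟨x, hx⟩ := isConj_iff.1 hc
  set f := (slRep F).f with hf
  have h1 : f x * f x⁻¹ = 1 := by rw [← map_mul, mul_inv_cancel, map_one]
  have h2 : f x⁻¹ * f x = 1 := by rw [← map_mul, inv_mul_cancel, map_one]
  have h3 : f x * (f (uc c) - 1) * f x⁻¹ = f (uc d) - 1 := by
    rw [mul_sub, sub_mul, mul_one, h1, ← map_mul, ← map_mul, hx]
  have h4 := cube_conj h2 h3 x.2 ![0, 0, 1]
  rw [cube_uc, cube_uc] at h4
  simp only [Matrix.cons_val, one_pow, mul_one] at h4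
  have h5 : d ^ 2 * (f x *ᵥ ![0, 0, 1]) 2 ^ 3 = c ^ 2 := by linear_combination -h4
  have h6 : (f x *ᵥ ![0, 0, 1]) 2 ≠ 0 := by
    intro h0
    rw [h0] at h5
    apply hc0
    have : c ^ 2 = 0 := by rw [← h5]; ring
    exact pow_eq_zero_iff (by norm_num) |>.1 this
  rw [hF _ h6, mul_one] at h5
  have h7 : (c - d) ^ 2 = 0 := by
    haveI : Fact (Nat.Prime 2) := ⟨Nat.prime_two⟩
    rw [sub_pow_char, h5, sub_self]
  exact sub_eq_zero.1 (pow_eq_zero_iff (by norm_num) |>.1 h7)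

theorem ex2_psl_three_four [Finite F] (h4 : Nat.card F = 4) :
    Ex2 (Matrix.SpecialLinearGroup (Fin 3) F ⧸
      Subgroup.center (Matrix.SpecialLinearGroup (Fin 3) F)) := by
  haveI : Fintype F := Fintype.ofFinite F
  haveI : Fact (Nat.Prime 2) := ⟨Nat.prime_two⟩
  obtain ⟨p, hp⟩ := CharP.exists F
  haveI : Fact p.Prime := ⟨CharP.char_is_prime F p⟩
  have hp2 : p = 2 := by
    obtain ⟨n, hn, hn'⟩ := FiniteField.card F p
    rw [← Nat.card_eq_fintype_card, h4] at hn'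
    have : p ∣ 2 ^ 2 := by
      rw [show (2 : ℕ) ^ 2 = 4 by norm_num, hn']
      exact dvd_pow_self p n.ne_zero
    exact (Nat.prime_dvd_prime_iff_eq (Fact.out : p.Prime) Nat.prime_two).1
      ((Fact.out : p.Prime).dvd_of_dvd_pow this)
  subst hp2
  have hF : ∀ x : F, x ≠ 0 → x ^ 3 = 1 := by
    intro x hx
    have := FiniteField.pow_card_sub_one_eq_one x hx
    rwa [← Nat.card_eq_fintype_card, h4] at this
  obtain ⟨w, hw0, hw⟩ := exists_gen F
  rw [h4] at hw
  have hw1 : w ≠ 1 := by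
    rintro rfl
    rw [orderOf_one] at hw
    omega
  have hw2 : w ^ 2 ≠ 1 := by
    intro h
    have := orderOf_dvd_of_pow_eq_one h
    rw [hw] at this
    norm_num at this
  have q : ∀ c : F, (uc c) ^ 2 ^ 2 = 1 := fun c =>
    pow_char_eq_one (slRep F).f (slRep F).inj (uc_cube c) (by norm_num)
  have hww : w ≠ w ^ 2 := by
    intro h
    apply hw1
    have : w * w = w * 1 := by rw [mul_one, ← pow_two]; exact h.symm
    exact mul_left_cancel₀ hw0 this
  refine Ex2.quot_three (p := 2) (a := 2) (slRep F).noP_two (q 1) (q w) (q (w ^ 2)) ?_ ?_ ?_ ?_ ?_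
  · rw [orderOf_uc one_ne_zero, orderOf_uc hw0]
  · rw [orderOf_uc hw0, orderOf_uc (pow_ne_zero _ hw0)]
  · exact fun h => hw1 (uc_inj hF one_ne_zero h).symm
  · exact fun h => hw2 (uc_inj hF one_ne_zero h).symm
  · exact fun h => hww (uc_inj hF hw0 h)

/-- `PSL_3(F)`, `|F| ≥ 3` -/
theorem ex2_psl_three [Finite F] (h3 : 3 ≤ Nat.card F) :
    Ex2 (Matrix.SpecialLinearGroup (Fin 3) F ⧸
      Subgroup.center (Matrix.SpecialLinearGroup (Fin 3) F)) := by
  by_cases h2 : (2 : F) = 0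
  · haveI : Fintype F := Fintype.ofFinite F
    haveI : Fact (Nat.Prime 2) := ⟨Nat.prime_two⟩
    haveI : CharP F 2 := CharTwo.of_one_ne_zero_of_two_eq_zero one_ne_zero h2
    obtain ⟨n, hn, hn'⟩ := FiniteField.card F 2
    rw [← Nat.card_eq_fintype_card] at hn'
    have hn1 : (n : ℕ) ≠ 1 := by
      intro h
      rw [h] at hn'
      omega
    have hn0 : (n : ℕ) ≠ 0 := n.ne_zero
    rcases Nat.lt_or_ge (n : ℕ) 3 with h | h
    · have : (n : ℕ) = 2 := by omega
      rw [this] at hn'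
      exact ex2_psl_three_four hn'
    · have h8 : 8 ≤ Nat.card F := by
        rw [hn']
        calc 8 = 2 ^ 3 := by norm_num
          _ ≤ 2 ^ (n : ℕ) := Nat.pow_le_pow_right (by norm_num) h
      apply ex2_psl_three_big _ h8
      have : Even (Nat.card F) := by
        rw [hn']
        exact (Nat.even_pow' hn0).2 even_two
      obtain ⟨k, hk⟩ := this
      exact ⟨k - 1, by omega⟩
  · exact ex2_psl_three_odd h2

end Three

end Cfsg.Agent.H701
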