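import Cfsg.Agent.H701.Cent

set_option autoImplicit false

/-!
Janko's first group.
-/

namespace Cfsg.Agent.H701

/-- `J₁`, from its order alone -/
theorem ex2_j1 {K : Type*} [Group K] [Finite K] (h : Nat.card K = 175560) : Ex2 K := by
  refine Ex2.of_triple (triple_of_sylow (p := 19) (m := 9240) (by norm_num) (by rw [h])
    (by norm_num) ?_ ?_)
  · rintro x - c - h -
    have h1 : 18 ∣ 9240 := (Dvd.intro_left c rfl).trans h
    revert h1
    decide
  · rintro x - c - h -
    have h1 : 9 ∣ 9240 := (Dvd.intro_left c rfl).trans h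
    revert h1
    decide

end Cfsg.Agent.H701
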