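import Cfsg.Agent.H701.Cent
import Cfsg.Agent.BabyU.ModelInst

set_option autoImplicit false

/-!
The Baby Monster: two classes of involutions.
-/

namespace Cfsg.Agent.H701

open Subgroup Cfsg.Agent.BabyM Cfsg.Agent.BabyM.Model Cfsg.Agent.BabyU Cfsg.Agent.BabyU.ClosModel

theorem ex2_b {K : Type*} [Group K] [Finite K] (h : Cfsg.Spor.IsoB K) : Ex2 K := by
  obtain ⟨e⟩ := h
  let e' := e.trans Cfsg.Agent.BM.KHAll.iso
  have hfin : Finite Inst.M.G := Finite.of_equiv K e'.toEquiv
  have I := F8Inner.inner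
  have hz : 3 ∣ Nat.card (centralizer ({zz Instance.all} : Set Inst.M.G)) := by
    have h1 : Inst.M.C.subgroupOf Inst.M.G ≤ centralizer ({zz Instance.all} : Set Inst.M.G) := by
      intro g hg
      rw [mem_centralizer_singleton_iff]
      exact Subtype.ext (Instance.all.grp.z_comm g hg)
    have h2 := card_dvd_of_le h1
    rw [Nat.card_congr (Subgroup.subgroupOfEquivOfLe (Instance.all.C_le_G)).toEquiv,
      Instance.all.grp.card_C] at h2
    exact (by norm_num : 3 ∣ 2 ^ 23 * 42305421312000).trans h2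
  have ht : 3 ∣ Nat.card (centralizer ({tt Instance.all} : Set Inst.M.G)) := by
    have h1 : Nat.card (centralizer ({tt Instance.all} : Set Inst.M.G)) = 306129918735099415756800 :=
      Instance.all.card_cent (TransFields.bTrans Instance.all)
    rw [h1]
    norm_num
  refine Ex2.congr e'.symm (Ex2.of_inv (l := 3) (x := tt Instance.all) (y := zz Instance.all)
    I.t_sq I.t_ne I.z_sq I.z_ne Nat.prime_three (by norm_num) ?_ ht hz)
  intro hc
  obtain ⟨g, hg⟩ := isConj_iff.1 hc
  exact I.z_notin ⟨g, mem_top g, hg⟩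

end Cfsg.Agent.H701
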