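import Cfsg.Agent.H701.Cent
import Cfsg.Agent.CTwoTab.Fi22

set_option autoImplicit false

/-!
The Fischer group `Fi22`: a transposition and a product of two commuting transpositions.
-/

namespace Cfsg.Agent.H701

open Subgroup Cfsg Cfsg.Spor

theorem card_PSU_four {F : Type} [Field F] [Fintype F] (hF : Fintype.card F = 4) :
    Nat.card (PSU 4 F 2) = 25920 := by
  have h := Cfsg.Agent.S0280.result (F := F) (q := 2) (by rw [hF]; norm_num) 4 (by norm_num)
  have e : (∏ i ∈ Finset.range 4, (if Even i then 2 ^ (i + 1) + 1 else 2 ^ (i + 1) - 1)) =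
      3 * 3 * 9 * 15 := by
    decide
  have e2 : Nat.gcd 4 (2 + 1) = 1 := by norm_num
  rw [e, e2] at h
  norm_num at h
  omega

theorem ex2_fi22 {K : Type*} [Group K] [Finite K] (h : Cfsg.Spor.IsoFi22 K) : Ex2 K := by
  obtain ⟨e⟩ := h
  have : Finite Cfsg.Spor.Fi22 := Finite.of_equiv K e.toEquiv
  obtain ⟨d, d', R, F⟩ := Cfsg.Agent.KFacts.FiTT.has_of_iso (K := Spor.Fi22) ⟨MulEquiv.refl _⟩
  have h1 := Cfsg.Agent.CTwoTab.Fi22.card_cent F
  refine Ex2.congr e.symm (Ex2.of_inv (l := 3) (x := d) (y := d * d') F.dd F.d_ne ?_ ?_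
    Nat.prime_three (by norm_num) ?_ ?_ ?_)
  · calc d * d' * (d * d') = d' * d * (d * d') := by rw [← F.comm]
      _ = d' * (d * d) * d' := by group
      _ = 1 := by rw [F.dd, mul_one, F.dd']
  · intro hdd
    exact F.ne (by rw [← mul_one d, ← F.dd', ← mul_assoc, hdd, one_mul])
  · intro hc
    have h2 := card_centralizer_eq_of_isConj hc
    rw [h1] at h2
    have h3 := card_mul_index (centralizer ({d * d'} : Set Spor.Fi22))
    rw [← h2, F.card] at h3
    have h4 := F.odd
    have h5 : (centralizer ({d * d'} : Set Spor.Fi22)).index = 3510 := by omega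
    rw [h5] at h4
    revert h4
    decide
  · rw [h1]; norm_num
  · obtain ⟨F', _, _, hF', f, hf, -⟩ := F.quoR
    have h2 : Nat.card (PSU 4 F' 2) ∣ Nat.card (centralizer ({d, d'} : Set Spor.Fi22)) :=
      Subgroup.card_dvd_of_surjective f hf
    have h3 : Nat.card (centralizer ({d, d'} : Set Spor.Fi22)) ∣
        Nat.card (centralizer ({d * d'} : Set Spor.Fi22)) := by
      apply card_dvd_of_le
      intro x hx
      obtain ⟨h4, h5⟩ := Cfsg.Agent.CTwoTab.Fi22.mem_pair.1 hx
      exact mem_centralizer_singleton_iff.2 (Cfsg.Agent.CTwoTab.Fi22.comm_mul h4 h5)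
    rw [card_PSU_four hF'] at h2
    exact ((by norm_num : 3 ∣ 25920).trans h2).trans h3

end Cfsg.Agent.H701
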