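import Cfsg.Agent.H701.Cent
import Cfsg.Agent.KFacts.HN.Classes
import Cfsg.Agent.KFacts.HN.PCard
import Cfsg.Agent.HN.TwoClasses

set_option autoImplicit false

/-!
The Harada-Norton group: two classes of involutions.
-/

namespace Cfsg.Agent.H701

open Cfsg.Agent.KFacts.HN

theorem ex2_hn {K : Type*} [Group K] [Finite K] (h : Cfsg.Spor.IsoHN K) : Ex2 K := by
  obtain ⟨e⟩ := h
  have : Finite Cfsg.Spor.HN := Finite.of_equiv K e.toEquiv
  refine Ex2.congr e.symm (Ex2.of_cards (x := Cfsg.Agent.HN.NormalH.ψ Cfsg.Agent.HN.H0Basic.τ)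
    (n := 2) (l := 3)
    Cfsg.Agent.HN.TwoClasses.orderOf_ψτ
    (orderOf_eq_prime (by rw [pow_two, Cfsg.Agent.HN.XWords.W0_sq]) PCard.W0_ne_one) Nat.prime_three
    (by norm_num) Classes.card_centralizer_τ PCard.card_centralizer (by norm_num)
    (by norm_num) (by norm_num))

end Cfsg.Agent.H701
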