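import Cfsg.Agent.H701.Cent
import Cfsg.Agent.KFacts.HS.Sheet2

set_option autoImplicit false

/-!
The Higman-Sims group: two classes of involutions.
-/

namespace Cfsg.Agent.H701

open Subgroup Cfsg Cfsg.Agent.KFacts.HS

theorem ex2_hs {K : Type*} [Group K] [Finite K] (h : Cfsg.Spor.IsoHS K) : Ex2 K := by
  obtain ⟨D⟩ := exists_mod h
  have h1 : Nat.card D.B6 ∣ Nat.card (centralizer ({D.s0} : Set K)) :=
    card_dvd_of_le fun x hx => mem_centralizer_singleton_iff.2 (D.s0_comm hx)
  rw [D.card_B6] at h1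
  have h2 := D.card_cent_s0
  have h3 := D.card_centralizer
  refine Ex2.of_inv (l := 3) (x := D.z) (y := D.s0) D.zz D.z1 D.s0_sq D.s0_ne Nat.prime_three
    (by norm_num) ?_ (by rw [h3]; norm_num) ((by norm_num : 3 ∣ 360).trans h1)
  intro hc
  have h4 := card_centralizer_eq_of_isConj hc
  omega

end Cfsg.Agent.H701
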