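import Cfsg.Agent.H701.Cent
import Cfsg.Agent.CTwoTab.He

set_option autoImplicit false

/-!
The Held group: two classes of involutions.
-/

namespace Cfsg.Agent.H701

open Subgroup Cfsg Cfsg.Spor Cfsg.Spor.He
open Cfsg.Agent.SporadicRecognition.HeldModel
open Cfsg.Agent.KFacts.He.Lv Cfsg.Agent.KFacts.He.TwoACent Cfsg.Agent.KFacts.He.TwoAPlane

theorem ex2_he {K : Type*} [Group K] [Finite K] (h : Cfsg.Spor.IsoHe K) : Ex2 K := by
  obtain ⟨e⟩ := h
  have : Finite Cfsg.Spor.He := Finite.of_equiv K e.toEquiv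
  have h1 : Nat.card (centralizer ({Cfsg.Agent.KFacts.He.Bound.z} : Set Cfsg.Spor.He)) = 21504 :=
    Cfsg.Agent.KFacts.He.Classes.card_centralizer
  have h2 : Nat.card ↥L ∣ Nat.card (centralizer ({gn .a} : Set Cfsg.Spor.He)) :=
    card_dvd_of_le Cfsg.Agent.CTwoTab.He.L_le_cent
  rw [Cfsg.Agent.CTwoTab.He.card_L] at h2
  obtain ⟨g, hg⟩ := Cfsg.Agent.KFacts.He.Classes.z_d
  have hd : (PresentedGroup.of Gen.d : Cfsg.Spor.He) * PresentedGroup.of Gen.d = 1 :=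
    gn_mul_self .d
  have h3 : Cfsg.Agent.KFacts.He.Bound.z * Cfsg.Agent.KFacts.He.Bound.z = 1 := by
    rw [← hg] at hd
    have h4 : g * (Cfsg.Agent.KFacts.He.Bound.z * Cfsg.Agent.KFacts.He.Bound.z) * g⁻¹ = 1 := by
      rw [← hd]; group
    exact conj_eq_one_iff.1 h4
  refine Ex2.congr e.symm (Ex2.of_inv (l := 3) (x := Cfsg.Agent.KFacts.He.Bound.z) (y := gn .a) h3
    Cfsg.Agent.KFacts.He.Hyp.z_ne_one (gn_mul_self .a) a_ne_one Nat.prime_three
    (by norm_num) ?_ ?_ ?_)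
  · intro hc
    rw [← card_centralizer_eq_of_isConj hc, h1] at h2
    revert h2
    norm_num
  · rw [h1]; norm_num
  · exact (by norm_num : 3 ∣ 4 * 20160).trans h2

end Cfsg.Agent.H701
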