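import Cfsg.Agent.H701.Cent
import Cfsg.Agent.CTwoTab.JTwo

set_option autoImplicit false

/-!
Janko's second group: two classes of involutions.
-/

namespace Cfsg.Agent.H701

open Subgroup Cfsg Cfsg.Agent.J2Type.Base Cfsg.Agent.OddHalf.D4.Spor Cfsg.Agent.OddHalf.D4.Spor.JTwo

theorem ex2_j2 {K : Type*} [Group K] [Finite K] (h : Cfsg.Spor.IsoJ2 K) : Ex2 K := by
  obtain ⟨t, u, Q, v, ρ, D⟩ := Cfsg.Agent.KFacts.J2.Facts.exists_dat_of h
  obtain ⟨f, U, V, H0, F⟩ := Cfsg.Agent.J2Type.CentU.main D.F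
  obtain ⟨e⟩ := equiv_H0 D F
  have h1 : Nat.card ↥H0 ∣ Nat.card (centralizer ({u} : Set K)) := card_dvd_of_le F.str.le
  have h2 : 3 ∣ Nat.card ↥H0 := by
    rw [Nat.card_congr e.toEquiv, nat_card_alternatingGroup, Nat.card_eq_fintype_card,
      Fintype.card_fin]
    decide
  refine Ex2.of_prime (l := 3) Nat.prime_three (D.F.hz.trans D.F.hu.symm) ?_
    (by rw [D.F.cardC]; norm_num) (h2.trans h1) D.F.nconj
  rw [D.F.hz]
  norm_num

end Cfsg.Agent.H701
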