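import Cfsg.Agent.H701.Cent
import Cfsg.Agent.KFacts.J4.DFour
import Cfsg.Agent.SporadicStructure.M24El

set_option autoImplicit false

/-!
Janko's fourth group: two classes of involutions.
-/

namespace Cfsg.Agent.H701

open Subgroup Cfsg
open scoped Pointwise

namespace M24Three

open Cfsg.Agent.SporadicStructure.M24El Cfsg.Agent.SporadicA.GolayBase
  Cfsg.Agent.SporadicA.GolayPerm

/-- an element of order 3 with 6 fixed points -/
def P : ℕ := 608904050958025961267132235064367296

theorem ok_P : ok P = true := by decide +kernel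

/-- an element of order 3 with 6 fixed points -/
noncomputable def g : M24 := el P

theorem g_cube : g * g * g = 1 := by
  rw [g, ← el_pcomp ok_P ok_P, ← el_pcomp (ok_pcomp ok_P ok_P) ok_P, ← el_idP]
  congr 1

theorem g_fix {i : ℕ} (hi : i = 0 ∨ i = 9 ∨ i = 13 ∨ i = 15) : g • pt i = pt i := by
  rw [g, el_smul_pt ok_P]
  rcases hi with rfl | rfl | rfl | rfl <;> decide +kernel

theorem g_ne : g ≠ 1 := by
  intro h
  have h1 : g • pt 1 = pt 1 := by rw [h, one_smul]
  rw [g, el_smul_pt ok_P] at h1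
  revert h1
  decide +kernel

theorem orderOf_g : orderOf g = 3 :=
  orderOf_eq_prime (by rw [pow_succ, pow_two, g_cube]) g_ne

/-- four fixed points -/
def S : Finset GolayPt := {pt 0, pt 9, pt 13, pt 15}

theorem card_S : S.card = 4 := by decide +kernel

theorem pt_ne : pt 0 ≠ pt 9 := by decide +kernel

theorem smul_S : (g : Equiv.Perm GolayPt) • S = S := by
  have h : ∀ p ∈ S, (g : Equiv.Perm GolayPt) • p = p := by
    intro p hp
    simp only [S, Finset.mem_insert, Finset.mem_singleton] at hp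
    rcases hp with rfl | rfl | rfl | rfl <;> exact g_fix (by simp)
  ext p
  rw [Finset.mem_smul_finset]
  constructor
  · rintro ⟨q, hq, rfl⟩
    rwa [h q hq]
  · intro hp
    exact ⟨p, hp, h p hp⟩

theorem smul_pair : (g : Equiv.Perm GolayPt) • ({pt 0, pt 9} : Finset GolayPt) = {pt 0, pt 9} := by
  have h : ∀ p ∈ ({pt 0, pt 9} : Finset GolayPt), (g : Equiv.Perm GolayPt) • p = p := by
    intro p hp
    simp only [Finset.mem_insert, Finset.mem_singleton] at hp
    rcases hp with rfl | rfl <;> exact g_fix (by simp)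
  ext p
  rw [Finset.mem_smul_finset]
  constructor
  · rintro ⟨q, hq, rfl⟩
    rwa [h q hq]
  · intro hp
    exact ⟨p, hp, h p hp⟩

end M24Three

open M24Three Cfsg.Agent.J4Type Cfsg.Agent.KFacts.J4

theorem ex2_j4 {K : Type*} [Group K] (h : Cfsg.Spor.IsoJ4 K) : Ex2 K := by
  obtain ⟨_, _, ⟨F⟩⟩ := Base.exists_full h
  let C := F.C
  have key : ∀ T : Finset GolayPt, Even T.card → (g : Equiv.Perm GolayPt) • T = T →
      C.ε T * C.φ g = C.φ g * C.ε T := by
    intro T hT hg
    have h1 := C.π_smul ⟨C.φ g, C.φ_mem g⟩ T hT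
    rw [C.π_φ, hg] at h1
    have h2 : C.φ g * C.ε T * (C.φ g)⁻¹ = C.ε T := h1
    calc C.ε T * C.φ g = (C.φ g * C.ε T * (C.φ g)⁻¹) * C.φ g := by rw [h2]
      _ = C.φ g * C.ε T := by group
  have hφ : orderOf (C.φ g) = 3 := by
    apply orderOf_eq_prime
    · rw [pow_succ, pow_two, ← map_mul, ← map_mul, g_cube, map_one]
    · intro h1
      have h2 := C.π_φ g
      have h3 : (⟨C.φ g, C.φ_mem g⟩ : normalizer (C.E hex0 : Set K)) = 1 := Subtype.ext h1
      rw [h3, map_one] at h2
      exact g_ne h2.symm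
  have hS : Even S.card := by rw [card_S]; decide
  have hP : Even ({Cfsg.Agent.SporadicA.GolayBase.pt 0,
      Cfsg.Agent.SporadicA.GolayBase.pt 9} : Finset GolayPt).card := DFour.even_two pt_ne
  have hx : C.ε S * C.ε S = 1 := (C.E_elem hex0 HexMax.hex0_isHex).1 _ (C.ε_mem _ hS)
  have hy := DFour.sq_duad C.toFrame pt_ne
  have hSz : IsConj C.z (C.ε S) := DuadCent.isConj_four C.toFrame card_S
  refine Ex2.of_inv (l := 3) (x := C.ε S) (y := C.ε {Cfsg.Agent.SporadicA.GolayBase.pt 0,
      Cfsg.Agent.SporadicA.GolayBase.pt 9}) hx (DFour.ne_one_four C.toFrame card_S) hy ?_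
      Nat.prime_three (by norm_num) ?_
      (dvd_card_centralizer (key _ hS smul_S) (by rw [hφ]))
      (dvd_card_centralizer (key _ hP smul_pair) (by rw [hφ]))
  · intro h1
    have h2 : IsCode _ := (C.ε_ker _ hP).1 h1
    have h3 := Cfsg.Agent.SporadicA.GolayBase.card_of_mem_supports h2
    rw [Finset.card_pair pt_ne] at h3
    omega
  · intro hc
    exact C.duad_not_conj _ _ pt_ne (hSz.trans hc)

end Cfsg.Agent.H701
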