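import Cfsg.Agent.H701.AltThree
import Cfsg.Agent.R10.Close

set_option autoImplicit false

/-!
The Lyons group: three classes of elements of order six, from the centralizer `2.A₁₁`.
-/

namespace Cfsg.Agent.H701

open Subgroup

theorem ex2_ly {K : Type*} [Group K] [Finite K] (h : Cfsg.Spor.IsoLy K) : Ex2 K := by
  obtain ⟨e⟩ := h
  have : Finite Cfsg.Spor.Ly := Finite.of_equiv K e.toEquiv
  obtain ⟨-, h2, ⟨f⟩, -⟩ := Cfsg.Agent.R10.Close.cover_τ
  have h3 : Triple (centralizer ({Cfsg.Agent.R10.Close.τ} : Set Cfsg.Spor.Ly)) 3 := by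
    refine Triple.lift (QuotientGroup.mk' (center _)) (QuotientGroup.mk'_surjective _) (k := 2) ?_
      (by norm_num) (Triple.congr f.symm (triple_alt (by norm_num)))
    intro x hx
    rw [QuotientGroup.ker_mk'] at hx
    have := pow_card_eq_one' (x := (⟨x, hx⟩ : center _))
    rw [h2] at this
    exact congrArg Subtype.val this
  exact Ex2.congr e.symm (Ex2.of_triple
    (Triple.of_centralizer Cfsg.Agent.R10.Close.order_τ (by norm_num) h3))

end Cfsg.Agent.H701
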