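import Cfsg.Agent.H701.Cent
import Cfsg.Agent.MonsterP.Equiv
import Cfsg.Agent.MonsterN.LitInst
import Cfsg.Agent.MonsterN.LitFin

set_option autoImplicit false

/-!
The Monster: two classes of involutions.
-/

namespace Cfsg.Agent.H701

open Subgroup Cfsg.Agent.MonsterX Cfsg.Agent.MonsterX.Model Cfsg.Agent.MonsterX.MainPack
open Cfsg.Agent.MonsterX.MainSimple Cfsg.Agent.MonsterX.MainBasic

theorem ex2_m {K : Type*} [Group K] [Finite K] (h : Cfsg.Spor.IsoM K) : Ex2 K := by
  obtain ⟨e⟩ := h
  obtain ⟨e'⟩ := Cfsg.Agent.MonsterP.Equiv.equiv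
  have A := Cfsg.Agent.MonsterN.LitFin.all
  have hfin : Finite InstData.M.G := G_finite A.hO
  have h1 : Nat.card (centralizer ({zG A.hG} : Set InstData.M.G)) = 2 ^ 25 * 4157776806543360000 := by
    rw [← card_C A.hG]
    refine Nat.card_congr (Equiv.ofBijective
      (fun x => (⟨(x : InstData.M.G), (mem_cent_iff A.hG A.hR A.hL A.hO A.hT _).1 x.2⟩ :
        InstData.M.C)) ⟨?_, ?_⟩)
    · intro a b hab
      apply Subtype.ext
      apply Subtype.ext
      exact congrArg (fun y : InstData.M.C => y.1) hab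
    · intro c
      exact ⟨⟨⟨c, C_le c.2⟩, (mem_cent_iff A.hG A.hR A.hL A.hO A.hT _).2 c.2⟩, rfl⟩
  have h2 := card_cent_t A.hG A.hR A.hL A.hO A.hT
  have ht2 : orderOf (tG A.hG A.hR) = 2 := by
    apply orderOf_eq_prime
    · rw [pow_two]
      exact Subtype.ext A.hR.t₀_sq
    · intro h
      rw [h] at h2
      have h3 : centralizer ({1} : Set InstData.M.G) = ⊤ := by
        rw [eq_top_iff]
        intro g _
        rw [mem_centralizer_singleton_iff, mul_one, one_mul]
      have h4 : Nat.card (centralizer ({zG A.hG} : Set InstData.M.G)) ∣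
          Nat.card (centralizer ({1} : Set InstData.M.G)) := by
        rw [h3]
        exact card_dvd_of_le le_top
      rw [h1, h2] at h4
      revert h4
      norm_num
  refine Ex2.congr (e.trans e').symm (Ex2.of_cards (x := zG A.hG) (y := tG A.hG A.hR) (n := 2)
    (l := 3) (orderOf_z A.hG) ht2 Nat.prime_three (by norm_num) h1 h2 (by norm_num)
    (by norm_num) (by norm_num))

end Cfsg.Agent.H701
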