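import Cfsg.Agent.H701.CycPair
import Cfsg.Agent.SylowLFive.MElevenFacts
import Cfsg.Agent.Cit.Eleven
import Cfsg.Agent.SporadicA.M11Sylow

set_option autoImplicit false

/-!
The Mathieu group `M₁₁`: elements of orders 8 and 11.
-/

namespace Cfsg.Agent.H701

open Subgroup

/-- an element of order eight -/
def glEight : GL (Fin 2) (ZMod 3) :=
  ⟨!![0, 1; 1, 1], !![2, 1; 1, 0], by decide, by decide⟩

theorem orderOf_glEight : orderOf glEight = 8 := by
  refine orderOf_eq_prime_pow (p := 2) (n := 2) ?_ ?_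
  · intro h
    have := congrArg Units.val h
    revert this
    decide
  · apply Units.ext
    decide

theorem ex2_m11 {K : Type*} [Group K] [Finite K] (h : Cfsg.Spor.IsoM11 K) : Ex2 K := by
  have hM := Cfsg.Agent.Cit.Eleven.isM11 h
  have := hM.1
  have : Fact (Nat.Prime 2) := ⟨Nat.prime_two⟩
  have : Fact (Nat.Prime 11) := ⟨by norm_num⟩
  obtain ⟨u, hu⟩ := exists_prime_orderOf_dvd_card' (G := K) 2 (by rw [hM.2]; norm_num)
  obtain ⟨v, hv⟩ := exists_prime_orderOf_dvd_card' (G := K) 11 (by rw [hM.2]; norm_num)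
  obtain ⟨f⟩ := Cfsg.Agent.SylowLFive.MElevenFacts.cent_equiv hM hu
  have h8 : orderOf ((f.symm glEight : centralizer ({u} : Set K)) : K) = 8 := by
    rw [orderOf_coe, MulEquiv.orderOf_eq, orderOf_glEight]
  exact Ex2.of_pairs
    (pair_of_not_dvd h8 (by rw [hM.2]; decide))
    (pair_of_inv hv (Cfsg.Agent.SporadicA.M11Sylow.not_isConj_inv hM hv)) (by norm_num)

end Cfsg.Agent.H701
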