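import Cfsg.Agent.H701.Cent
import Cfsg.Agent.CoThreeStd.AutInv

set_option autoImplicit false

/-!
The Mathieu group `M₁₂`: two classes of involutions.
-/

namespace Cfsg.Agent.H701

open Cfsg.Agent.CoThreeStd

theorem ex2_m12 {K : Type*} [Group K] [Finite K] (h : Cfsg.Spor.IsoM12 K) : Ex2 K := by
  obtain ⟨e⟩ := h
  have : Finite Cfsg.Spor.M12 := Finite.of_equiv K e.toEquiv
  have hA := AutInv.isA_y
  have hB := AutInv.isB_pr
  exact Ex2.congr e.symm (Ex2.of_cards (n := 2) (l := 3)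
    (orderOf_eq_prime (by rw [pow_two, hA.1]) hA.2.1)
    (orderOf_eq_prime (by rw [pow_two, hB.1]) hB.2.1) Nat.prime_three
    (by norm_num) hA.2.2 hB.2.2 (by norm_num) (by norm_num) (by norm_num))

end Cfsg.Agent.H701
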