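import Cfsg.Agent.H701.GolayFix
import Cfsg.Agent.NotCT.Orders

set_option autoImplicit false

/-!
The Mathieu group `M₂₃`: elements of orders 11 and 23.
-/

namespace Cfsg.Agent.H701

open Subgroup Cfsg.Agent.H565.Fix Cfsg.Agent.H701.Golay

/-- commuting elements of `M₂₃` of prime orders -/
theorem m23_comm {x s : Cfsg.Spor.M23} (hc : (s : Cfsg.Spor.M23) * x = x * s) {p : ℕ} (hp : p.Prime)
    (hx : orderOf x = p) :
    (Fx (s : Equiv.Perm GolayPt)).card ≡ (Fx (s : Equiv.Perm GolayPt) ∩ Fx (x : Equiv.Perm GolayPt)).card [MOD p] ∧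
      1 ≤ (Fx (s : Equiv.Perm GolayPt) ∩ Fx (x : Equiv.Perm GolayPt)).card := by
  constructor
  · refine card_mod_comm hp ?_ (congrArg Subtype.val hc).symm
    rw [← hx, ← orderOf_coe, pow_orderOf_eq_one]
  · apply Finset.card_pos.2
    refine ⟨none, ?_⟩
    rw [Finset.mem_inter, mem_Fx, mem_Fx]
    exact ⟨s.2.2, x.2.2⟩

theorem ex2_m23 {K : Type*} [Group K] [Finite K] (h : Cfsg.Spor.IsoM23 K) : Ex2 K := by
  have hcard : Nat.card K = 10200960 := Cfsg.Agent.NotCT.Orders.m23 h
  obtain ⟨e⟩ := h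
  have hcard' : Nat.card Cfsg.Spor.M23 = 10200960 := by
    rw [← hcard]; exact (Nat.card_congr e.toEquiv).symm
  have hex : ∀ {x : Cfsg.Spor.M23} {r k : ℕ}, r.Prime →
      Nat.card (centralizer ({x} : Set Cfsg.Spor.M23)) = k → r ∣ k →
      ∃ s : Cfsg.Spor.M23, s * x = x * s ∧ orderOf s = r := by
    intro x r k hr hk hrk
    have : Fact (Nat.Prime r) := ⟨hr⟩
    obtain ⟨s, hs⟩ := exists_prime_orderOf_dvd_card' (G := centralizer ({x} : Set Cfsg.Spor.M23)) r
      (by rw [hk]; exact hrk)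
    exact ⟨s, mem_centralizer_singleton_iff.1 s.2, by rw [orderOf_coe, hs]⟩
  have hord : ∀ {x : Cfsg.Spor.M23} {r : ℕ}, orderOf x = r →
      orderOf (x : Equiv.Perm GolayPt) = r := by
    intro x r hx
    rw [orderOf_coe, hx]
  have h11 : Pair Cfsg.Spor.M23 11 := by
    refine pair_of_sylow (m := 927360) (by norm_num) (by rw [hcard']) (by norm_num) ?_
    intro x hx c hc h1 h2
    have h3 : c ∣ 92736 := by
      rw [show (927360 : ℕ) = 92736 * (11 - 1) from rfl] at h1
      exact Nat.dvd_of_mul_dvd_mul_right (by norm_num) h1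
    have h4 : Even c := by
      by_contra hodd
      have hcop : c.Coprime (2 ^ 6) :=
        Nat.Coprime.pow_right _ (Nat.coprime_two_right.2 (Nat.not_even_iff_odd.1 hodd))
      rw [show (92736 : ℕ) = 2 ^ 6 * 1449 from rfl] at h3
      have h6 : c ∈ Nat.divisors 1449 := Nat.mem_divisors.2 ⟨hcop.dvd_of_dvd_mul_left h3, by norm_num⟩
      have h7 : ∀ c ∈ Nat.divisors 1449, ¬ (927360 % 11 = c * (11 - 1) % 11) := by
        decide +kernel
      exact h7 c h6 h2
    obtain ⟨s, hs, hs2⟩ := hex Nat.prime_two hc (h4.two_dvd.mul_left _)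
    have h8 := card_Fx_two s.2.1 (hord hs2) (p := none) s.2.2
    have h9 := card_Fx_eleven x.2.1 (hord hx)
    obtain ⟨h5, h6⟩ := m23_comm hs (by norm_num) hx
    have h7 := Finset.card_le_card (Finset.inter_subset_right
      (s₁ := Fx (s : Equiv.Perm GolayPt)) (s₂ := Fx (x : Equiv.Perm GolayPt)))
    unfold Nat.ModEq at h5
    omega
  have h23 : Pair Cfsg.Spor.M23 23 := by
    refine pair_of_sylow (m := 443520) (by norm_num) (by rw [hcard']) (by norm_num) ?_
    intro x hx c hc h1 h2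
    have h3 : c ∣ 20160 := by
      rw [show (443520 : ℕ) = 20160 * (23 - 1) from rfl] at h1
      exact Nat.dvd_of_mul_dvd_mul_right (by norm_num) h1
    have hx3 := card_Fx_23 x.2.1 (hord hx)
    have hc1 : c ≠ 1 := by
      rintro rfl
      norm_num at h2
    have hr := Nat.minFac_prime hc1
    have hrc := Nat.minFac_dvd c
    set r := c.minFac with hrdef
    obtain ⟨s, hs, hs2⟩ := hex hr hc (hrc.mul_left _)
    have h20 : r ∣ 20160 := hrc.trans h3
    have hfix := fix_le s.2.1 s.2.2 hr (hord hs2) (h20.trans (by norm_num))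
    have hr4 : r = 2 ∨ r = 3 ∨ r = 5 ∨ r = 7 := by
      rw [show (20160 : ℕ) = 2 ^ 6 * (3 ^ 2 * (5 * 7)) from rfl] at h20
      rcases (Nat.Prime.dvd_mul hr).1 h20 with h | h
      · exact Or.inl ((Nat.prime_dvd_prime_iff_eq hr Nat.prime_two).1 (hr.dvd_of_dvd_pow h))
      rcases (Nat.Prime.dvd_mul hr).1 h with h | h
      · exact Or.inr (Or.inl ((Nat.prime_dvd_prime_iff_eq hr Nat.prime_three).1
          (hr.dvd_of_dvd_pow h)))
      rcases (Nat.Prime.dvd_mul hr).1 h with h | h
      · exact Or.inr (Or.inr (Or.inl ((Nat.prime_dvd_prime_iff_eq hr Nat.prime_five).1 h)))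
      · exact Or.inr (Or.inr (Or.inr ((Nat.prime_dvd_prime_iff_eq hr (by norm_num)).1 h)))
    have h3' : 3 ≤ (Fx (s : Equiv.Perm GolayPt)).card := by
      refine le_trans ?_ hfix
      rcases hr4 with h | h | h | h <;> rw [h] <;> decide
    obtain ⟨h5, h6⟩ := m23_comm hs (by norm_num) hx
    have h7 := Finset.card_le_card (Finset.inter_subset_right
      (s₁ := Fx (s : Equiv.Perm GolayPt)) (s₂ := Fx (x : Equiv.Perm GolayPt)))
    have h24 : (Fx (s : Equiv.Perm GolayPt)).card ≤ 24 := Finset.card_le_univ _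
    have h24' : (Fx (s : Equiv.Perm GolayPt)).card = 24 := by
      unfold Nat.ModEq at h5
      omega
    have h1' := eq_one_of_card_Fx h24'
    have h2' := hord hs2
    rw [h1', orderOf_one] at h2'
    exact hr.one_lt.ne h2'
  exact Ex2.congr e.symm (Ex2.of_pairs h11 h23 (by norm_num))

end Cfsg.Agent.H701
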