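import Cfsg.Agent.H701.Cent
import Cfsg.Agent.KFacts.M24Two.Orders
import Cfsg.Prelude.Def_Spor_Mathieu

set_option autoImplicit false

/-!
The Mathieu group `M₂₄`: two classes of involutions.
-/

namespace Cfsg.Agent.H701

open Cfsg.Agent.KFacts.M24Two

theorem ex2_m24 {K : Type*} [Group K] [Finite K] (h : Cfsg.Spor.IsoM24 K) : Ex2 K := by
  obtain ⟨e⟩ := h
  have : Finite Cfsg.M24 := Finite.of_equiv K e.toEquiv
  refine Ex2.congr e.symm (Ex2.of_cards (x := Count.z) (y := Count.w) (n := 2) (l := 3)
    (orderOf_eq_prime (by rw [pow_two, Count.zz]) Count.z_ne_one)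
    (orderOf_eq_prime (by rw [pow_two, Count.ww]) Count.w_ne_one) Nat.prime_three
    (by norm_num) Orders.card_centralizer_z Orders.card_centralizer_w (by norm_num)
    (by norm_num) (by norm_num))

end Cfsg.Agent.H701
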