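import Cfsg.Agent.H701.Cent
import Cfsg.Agent.KFacts.SuzTwoB
import Cfsg.Agent.KFacts.SuzLarge

set_option autoImplicit false

/-!
The Suzuki sporadic group: two classes of involutions.
-/

namespace Cfsg.Agent.H701

open Subgroup Cfsg Cfsg.Spor
open Cfsg.Agent.SporadicRecognition.SuzOrder Cfsg.Agent.SuzThree.Basic Cfsg.Agent.SuzThree.CentA
  Cfsg.Agent.KFacts.SuzLFour Cfsg.Agent.KFacts.SuzTwoB

theorem ex2_suz {K : Type*} [Group K] [Finite K] (h : Cfsg.Spor.IsoSuz K) : Ex2 K := by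
  obtain ⟨e⟩ := h
  have : Finite Cfsg.Spor.Suz := Finite.of_equiv K e.toEquiv
  have h1 : Nat.card (centralizer ({z0} : Set Cfsg.Spor.Suz)) = 3317760 :=
    Cfsg.Agent.KFacts.SuzCent.card_C1
  have h2 : Nat.card (centralizer ({e0} : Set Cfsg.Spor.Suz)) = 161280 :=
    Cfsg.Agent.KFacts.SuzTwoB.card_CE
  refine Ex2.congr e.symm (Ex2.of_cards (n := 2) (l := 3) 
    (orderOf_eq_prime (by rw [pow_two]; exact Cfsg.Agent.KFacts.SuzLarge.large.z_sq)
      Cfsg.Agent.KFacts.SuzLarge.large.z_ne)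
    (orderOf_eq_prime (by rw [pow_two, e0_sq]) e0_ne) Nat.prime_three (by norm_num) h1 h2
    (by norm_num) (by norm_num) (by norm_num))

end Cfsg.Agent.H701
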