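import Cfsg.Agent.H701.TwChev
import Cfsg.Agent.KFacts.TwF4.Torus

/-!
# `Ex2` for the groups `²F₄(q)`, `q > 2`
-/

set_option autoImplicit false
set_option linter.all false

namespace Cfsg.Agent.H701

/-- an element of prime order in the centralizer -/
theorem prime_dvd_centralizer {G : Type*} [Group G] [Finite G] {y z : G} {l : ℕ} (hc : Commute y z)
    (hl : l ∣ orderOf z) : l ∣ Nat.card (Subgroup.centralizer ({y} : Set G)) := by
  have hmem : z ∈ Subgroup.centralizer ({y} : Set G) := by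
    rw [Subgroup.mem_centralizer_singleton_iff]
    exact hc.symm
  have h1 : orderOf (⟨z, hmem⟩ : Subgroup.centralizer ({y} : Set G)) = orderOf z := by
    rw [← Subgroup.orderOf_coe]
  exact hl.trans (by rw [← h1]; exact orderOf_dvd_natCard _)

namespace Chev

open Cfsg.Lie Cfsg.Agent.ChevalleyStructure Cfsg.Agent.ChevalleyStructure.Elts
open Cfsg.Agent.ChevalleyStructure.NConj Cfsg.Agent.ChevalleyStructure.BNChev

/-- the pair of a long root `v'` and a short root `v` of the same half plane with `v' - v` a root -/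
def pok (v v' : ℕ) : Bool :=
  (v != v') && (v' != chevF4.neg v) && !(chevF4.commTerms v' (chevF4.neg v)).isEmpty

set_option maxRecDepth 100000 in
theorem pok_closed : ∀ i < 4, ∀ v < 48, ∀ v' < 48, pok v v' = true →
    pok (chevF4.reflectRoot i v) (chevF4.reflectRoot i v') = true := by decide +kernel

theorem pok_orb {l : List ℕ} (hl : ∀ i ∈ l, i < chevF4.rank) {v v' : ℕ} (hv : v < 48) (hv' : v' < 48)
    (h : pok v v' = true) : pok (orb chevF4 l v) (orb chevF4 l v') = true := by
  induction l with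
  | nil => exact h
  | cons i l ih =>
    have hl' : ∀ j ∈ l, j < chevF4.rank := fun j hj => hl j (List.mem_cons_of_mem _ hj)
    exact pok_closed i (hl i List.mem_cons_self) _ (orb_lt memF4 hl' hv) _ (orb_lt memF4 hl' hv')
      (ih hl')

section

variable {K : Type*} [Field K] [CharP K 2]

open Cfsg.Agent.ChevalleyStructure.TwF4.Rel (X cm comm_rel W)
open Cfsg.Agent.ChevalleyStructure.TwF4.Tables (wordK)

theorem X_eq (r : ℕ) (t : K) : X r t = xG memF4 r t := Units.ext rfl

theorem wordK_nil (t u : K) : wordK t u [] = [] := rfl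

theorem central_of_cm {r : ℕ} (hr : 24 ≤ r) (hr' : r < 48)
    (h : ∀ s, 24 ≤ s → s < 48 → s ≠ r → cm r s = []) (t : K) :
    ∀ u ∈ chevF4.posUnipotent K, u * xG memF4 r t = xG memF4 r t * u := by
  have G := RootComb.good_of_mem memF4
  have key : chevF4.posUnipotent K ≤ Subgroup.centralizer ({xG memF4 r t} : Set (GL chevF4.Idx K)) := by
    unfold ChevalleyDatum.posUnipotent
    rw [Subgroup.closure_le]
    rintro g ⟨s, c, hs, hg⟩
    rw [SetLike.mem_coe, Subgroup.mem_centralizer_singleton_iff]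
    have hgx : g = xG memF4 s c := Units.ext hg
    rw [hgx]
    by_cases hsr : s = r
    · subst hsr
      rw [xG_add, xG_add, add_comm]
    · rw [G.isPosRoot_iff] at hs
      obtain ⟨h1, h2⟩ := hs
      have h1' : 24 ≤ s := h1
      have h2' : s < 48 := h2
      have h3 := comm_rel (K := K) r s hr hr' h1' h2' (Ne.symm hsr) t c
      rw [h s h1' h2' hsr, wordK_nil] at h3
      rw [← X_eq, ← X_eq, h3]
      simp
  intro u hu
  exact Subgroup.mem_centralizer_singleton_iff.1 (key hu)

theorem cm_44 : ∀ s, 24 ≤ s → s < 48 → s ≠ 44 → cm 44 s = [] := by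
  intro s h1 h2 h3
  interval_cases s <;> first | rfl | exact absurd rfl h3

theorem cm_47 : ∀ s, 24 ≤ s → s < 48 → s ≠ 47 → cm 47 s = [] := by
  intro s h1 h2 h3
  interval_cases s <;> first | rfl | exact absurd rfl h3

/-- **the two classes of involutions** -/
theorem not_conj_F4 {a b : K} (ha : a ≠ 0) (hb : b ≠ 0) : ∀ g ∈ chevF4.group K,
    g * (xG memF4 44 a * xG memF4 47 b) * g⁻¹ ≠ xG memF4 33 1 * xG memF4 24 1 := by
  intro g hg he
  have hD := memF4
  have G := RootComb.good_of_mem memF4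
  have hcen : ∀ u ∈ chevF4.posUnipotent K, u * (xG memF4 44 a * xG memF4 47 b) =
      (xG memF4 44 a * xG memF4 47 b) * u := by
    intro u hu
    rw [← mul_assoc, central_of_cm (by norm_num) (by norm_num) cm_44 a u hu, mul_assoc,
      central_of_cm (by norm_num) (by norm_num) cm_47 b u hu, mul_assoc]
  obtain ⟨u, hu, m, hm, e⟩ := conj_central hD hcen hg he
  obtain ⟨l, hl, hact⟩ := actsW_of_mem hD hm
  obtain ⟨c, hc0, hct⟩ := hact 44 (by decide +kernel)
  obtain ⟨d, hd0, hdt⟩ := hact 47 (by decide +kernel)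
  have e1 : m * (xG memF4 44 a * xG memF4 47 b) * m⁻¹ =
      xG memF4 (orb chevF4 l 44) (c * a) * xG memF4 (orb chevF4 l 47) (d * b) := by
    rw [← hct, ← hdt]
    group
  rw [e1] at e
  have hp := pok_orb hl (v := 44) (v' := 47) (by norm_num) (by norm_num) (by decide +kernel)
  have hvlt := orb_lt hD (l := l) hl (r := 44) (by decide +kernel)
  have hvlt' := orb_lt hD (l := l) hl (r := 47) (by decide +kernel)
  have hca : c * a ≠ 0 := mul_ne_zero hc0 ha
  have hdb : d * b ≠ 0 := mul_ne_zero hd0 hb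
  obtain ⟨v, hv⟩ : ∃ v, v = orb chevF4 l 44 := ⟨_, rfl⟩
  obtain ⟨v', hv'⟩ : ∃ v', v' = orb chevF4 l 47 := ⟨_, rfl⟩
  rw [← hv] at e hp hvlt
  rw [← hv'] at e hp hvlt'
  have p33 : chevF4.IsPosRoot 33 := by decide +kernel
  have p24 : chevF4.IsPosRoot 24 := by decide +kernel
  have s0 : chevF4.simple 0 = 33 := by decide +kernel
  have s3 : chevF4.simple 3 = 24 := by decide +kernel
  have hyU : xG memF4 33 (1 : K) * xG memF4 24 1 ∈ chevF4.posUnipotent K :=
    mul_mem (xG_mem_posUnipotent hD p33 _) (xG_mem_posUnipotent hD p24 _)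
  have hwU : xG memF4 v (c * a) * xG memF4 v' (d * b) ∈ chevF4.posUnipotent K := by
    have : xG memF4 v (c * a) * xG memF4 v' (d * b) =
        u⁻¹ * (xG memF4 33 (1 : K) * xG memF4 24 1) * u := by rw [e]; group
    rw [this]
    exact mul_mem (mul_mem (inv_mem hu) hyU) hu
  have hn0 : xG memF4 33 (1 : K) * xG memF4 24 1 ∉ Up chevF4 K 0 := by
    have := two_simple_notMem (F := K) (a := 1) (b := 1) hD (i := 0) (j := 3) (by decide +kernel)
      (by decide +kernel) (by decide +kernel) one_ne_zero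
    rwa [s0, s3] at this
  have hn3 : xG memF4 33 (1 : K) * xG memF4 24 1 ∉ Up chevF4 K 3 := by
    intro h
    have k1 : xG memF4 33 (1 : K) ∈ Up chevF4 K 3 := xG_mem_Up hD p33 (by decide +kernel) 1
    have k2 : xG hD (chevF4.simple 3) 1 ∈ Up chevF4 K 3 := by
      have := mul_mem (inv_mem k1) h
      rw [inv_mul_cancel_left] at this
      rwa [s3]
    exact one_ne_zero (simple_mem_Up hD (by decide +kernel) k2)
  have hneg : ∀ w < chevF4.nroots, ¬ chevF4.IsPosRoot w → chevF4.IsNegRoot w := by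
    intro w hw h
    rw [G.isPosRoot_iff] at h
    rw [G.isNegRoot_iff]
    omega
  by_cases pv : chevF4.IsPosRoot v
  · by_cases pv' : chevF4.IsPosRoot v'
    · have h0 : v = 33 ∨ v' = 33 := by
        by_contra hcon
        push Not at hcon
        apply hn0
        rw [e]
        exact conj_mem_Up hD (by decide +kernel) hu
          (mul_mem (xG_mem_Up hD pv (by rw [s0]; exact hcon.1) _)
            (xG_mem_Up hD pv' (by rw [s0]; exact hcon.2) _))
      have h3 : v = 24 ∨ v' = 24 := by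
        by_contra hcon
        push Not at hcon
        apply hn3
        rw [e]
        exact conj_mem_Up hD (by decide +kernel) hu
          (mul_mem (xG_mem_Up hD pv (by rw [s3]; exact hcon.1) _)
            (xG_mem_Up hD pv' (by rw [s3]; exact hcon.2) _))
      rcases h0 with h0 | h0 <;> rcases h3 with h3 | h3
      · omega
      · rw [h0, h3] at hp
        exact absurd hp (by decide +kernel)
      · rw [h0, h3] at hp
        exact absurd hp (by decide +kernel)
      · omega
    · have h1 : xG memF4 v' (d * b) ∈ chevF4.posUnipotent K := by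
        have := mul_mem (inv_mem (xG_mem_posUnipotent hD pv (c * a))) hwU
        rwa [inv_mul_cancel_left] at this
      have h2 := eq_one_of_pos_neg hD h1 (xG_mem_negUnipotent hD (hneg v' hvlt' pv') _)
      rw [xG_eq_one_iff hD hvlt'] at h2
      exact hdb h2
  · by_cases pv' : chevF4.IsPosRoot v'
    · have h1 : xG memF4 v (c * a) ∈ chevF4.posUnipotent K := by
        have := mul_mem hwU (inv_mem (xG_mem_posUnipotent hD pv' (d * b)))
        rwa [mul_inv_cancel_right] at this
      have h2 := eq_one_of_pos_neg hD h1 (xG_mem_negUnipotent hD (hneg v hvlt pv) _)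
      rw [xG_eq_one_iff hD hvlt] at h2
      exact hca h2
    · have h2 := eq_one_of_pos_neg hD hwU (mul_mem
        (xG_mem_negUnipotent hD (hneg v hvlt pv) _) (xG_mem_negUnipotent hD (hneg v' hvlt' pv') _))
      rw [h2, mul_one, mul_inv_cancel] at e
      exact hn0 (by rw [e]; exact one_mem _)

end

section

open Cfsg.Agent.KFacts.TwF4 Cfsg.Agent.KFacts.TwF4.Inst
open Cfsg.Agent.ChevalleyStructure.TwF4.TwistedFix (Rln)
open Cfsg.Agent.ChevalleyStructure.TwF4.Rel (X)

variable {K : Type*} [Field K] [CharP K 2] [Finite K] {φ : K →+* K} {e : ℕ}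

theorem coe_re (hφ : Rln φ e) (u : K) : ((re hφ 2 0 u : ↥(twistedF4 K e)) : GL chevF4.Idx K) =
    xG memF4 44 u * xG memF4 47 (φ u) := by
  show Cfsg.Agent.Octagon.KRel.xe φ 29 41 44 47 0 u = _
  unfold Cfsg.Agent.Octagon.KRel.xe
  rw [X_eq, X_eq, X_eq, X_eq]
  simp [xG_zero]

theorem coe_ro (hφ : Rln φ e) (u : K) : ((ro hφ 0 u : ↥(twistedF4 K e)) : GL chevF4.Idx K) =
    xG memF4 33 u * xG memF4 24 (φ u) := by
  show Cfsg.Agent.Octagon.KRel.xo φ 33 24 u = _
  unfold Cfsg.Agent.Octagon.KRel.xo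
  rw [X_eq, X_eq]

theorem not_conj_tw (hφ : Rln φ e) : ¬ IsConj (re hφ 2 0 1) (ro hφ 0 1) := by
  intro h
  obtain ⟨g, hg⟩ := isConj_iff.1 h
  have h1 := congrArg Subtype.val hg
  have h2 : (g : GL chevF4.Idx K) * ((re hφ 2 0 1 : ↥(twistedF4 K e)) : GL chevF4.Idx K) *
      (g : GL chevF4.Idx K)⁻¹ = ((ro hφ 0 1 : ↥(twistedF4 K e)) : GL chevF4.Idx K) := h1
  rw [coe_re, coe_ro, map_one] at h2
  exact not_conj_F4 one_ne_zero one_ne_zero _ (genSubgroup_le memF4 _ g.2) h2

theorem order_two_re (hφ : Rln φ e) : orderOf (re hφ 2 0 1) = 2 := by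
  rw [← Subgroup.orderOf_coe, coe_re, map_one]
  have hc : Commute (xG memF4 44 (1 : K)) (xG memF4 47 1) :=
    central_of_cm (by norm_num) (by norm_num) cm_47 1 _
      (xG_mem_posUnipotent memF4 (by decide +kernel) 1)
  apply orderOf_eq_prime
  · rw [hc.mul_pow, xG_pow_char, xG_pow_char, one_mul]
  · intro h
    apply not_conj_F4 (K := K) one_ne_zero one_ne_zero 1 (one_mem _)
    rw [h]
    exfalso
    have h1 : xG memF4 44 (1 : K) = (xG memF4 47 1)⁻¹ := eq_inv_of_mul_eq_one_left h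
    have h3 : (re hφ 2 0 1 : ↥(twistedF4 K e)) = 1 := by
      apply Subtype.ext
      rw [coe_re, map_one, h]
      rfl
    have h4 : (re hφ 2 0 0 : ↥(twistedF4 K e)) = 1 := by
      apply Subtype.ext
      rw [coe_re, map_zero, xG_zero, xG_zero, one_mul]
      rfl
    exact one_ne_zero ((sys hφ).injE 2 0 1 0 0 (h3.trans h4.symm)).2

theorem order_two_ro (hφ : Rln φ e) : orderOf (ro hφ 0 1) = 2 := by
  rw [← Subgroup.orderOf_coe, coe_ro, map_one]
  have hc : Commute (xG memF4 33 (1 : K)) (xG memF4 24 1) :=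
    commute_of_orth' memF4 (by decide +kernel) _ _
  apply orderOf_eq_prime
  · rw [hc.mul_pow, xG_pow_char, xG_pow_char, one_mul]
  · intro h
    have := two_simple_notMem (F := K) (a := 1) (b := 1) memF4 (i := 0) (j := 3) (by decide +kernel)
      (by decide +kernel) (by decide +kernel) one_ne_zero
    rw [show chevF4.simple 0 = 33 by decide +kernel, show chevF4.simple 3 = 24 by decide +kernel,
      h] at this
    exact this (one_mem _)

/-- the order of a torus element -/
theorem orderOf_torus (hφ : Rln φ e) {a : ZMod 8} {h : ↥(twistedF4 K e)} {c d : Kˣ}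
    (hh : ∀ a p u, h * re hφ a p u * h⁻¹ =
      re hφ a ((chE φ a c d : K) * p) ((chE φ a c d : K) * φ (chE φ a c d : K) * u)) :
    orderOf (chE φ a c d) ∣ orderOf h := by
  have key : ∀ k : ℕ, ∃ v, h ^ k * re hφ a 1 0 * (h ^ k)⁻¹ = re hφ a ((chE φ a c d : K) ^ k) v := by
    intro k
    induction k with
    | zero => exact ⟨0, by simp⟩
    | succ k ih =>
      obtain ⟨v, hv⟩ := ih
      have e1 : h ^ (k + 1) * re hφ a 1 0 * (h ^ (k + 1))⁻¹ =
          h * (h ^ k * re hφ a 1 0 * (h ^ k)⁻¹) * h⁻¹ := by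
        rw [pow_succ']; group
      rw [e1, hv, hh, pow_succ']
      exact ⟨_, rfl⟩
  obtain ⟨v, hv⟩ := key (orderOf h)
  rw [pow_orderOf_eq_one, one_mul, inv_one, mul_one] at hv
  have h1 := ((sys hφ).injE a _ _ _ _ hv).1
  apply orderOf_dvd_of_pow_eq_one
  apply Units.ext
  rw [Units.val_pow_eq_pow_val, Units.val_one, ← h1]

theorem ex2_tw (hφ : Rln φ e) {l : ℕ} (hl : l.Prime) (hl2 : l ≠ 2) {ζ : Kˣ} (hζ : orderOf ζ = l) :
    Ex2 (twistedF4 K e) := by
  obtain ⟨h₁, -, -, hE₁⟩ := exists_torus hφ (Units.map (φ : K →* K) ζ) ζ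
  obtain ⟨h₂, -, hO₂, hE₂⟩ := exists_torus hφ ζ ζ⁻¹
  have hl2' : ¬ l ∣ 2 := fun h => hl2 ((Nat.prime_dvd_prime_iff_eq hl Nat.prime_two).1 h)
  refine Ex2.of_prime (y₁ := re hφ 2 0 1) (y₂ := ro hφ 0 1) hl ?_ ?_
    (prime_dvd_centralizer (z := h₁) ?_ ?_) (prime_dvd_centralizer (z := h₂) ?_ ?_)
    (not_conj_tw hφ)
  · rw [order_two_re, order_two_ro]
  · rw [order_two_re]; exact hl2'
  · have h := hE₁ 2 0 1
    rw [chE_two, div_self'] at h
    simp only [Units.val_one, map_one, mul_one, one_mul, mul_zero] at h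
    exact (mul_inv_eq_iff_eq_mul.1 h).symm
  · have h := orderOf_torus hφ (a := 1) hE₁
    rwa [chE_one, hζ] at h
  · have h := hO₂ 0 1
    rw [chO, chE_zero, zero_add, chE_one, mul_inv_cancel, Units.val_one, one_mul] at h
    exact (mul_inv_eq_iff_eq_mul.1 h).symm
  · have h := orderOf_torus hφ (a := 0) hE₂
    rwa [chE_zero, hζ] at h

end

/-- **`²F₄(q)`, `q > 2`** -/
theorem ex2_twistedF4 {K : Type*} [Field K] [Fintype K] {m : ℕ} (hm : 1 ≤ m)
    (hK : Fintype.card K = 2 ^ (2 * m + 1)) : Ex2 (twistedF4 K (2 ^ m)) := by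
  haveI : CharP K 2 := Cfsg.Agent.ChevalleyStructure.TwF4.Twisted.charP_two hK
  obtain ⟨φ, hφ⟩ := Cfsg.Agent.ChevalleyStructure.TwF4.TwistedFix.exists_rln hK
  haveI : Finite Kˣ := inferInstance
  have hc : Nat.card Kˣ = 2 ^ (2 * m + 1) - 1 := by
    rw [Nat.card_units, Nat.card_eq_fintype_card, hK]
  have hpow : 2 ^ (2 * m + 1) = 2 * 2 ^ (2 * m) := by rw [pow_succ]; ring
  have hge : 1 ≤ 2 ^ (2 * m) := Nat.one_le_two_pow
  have hge2 : 4 ≤ 2 ^ (2 * m) := by
    calc 4 = 2 ^ 2 := by norm_num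
      _ ≤ 2 ^ (2 * m) := Nat.pow_le_pow_right (by norm_num) (by omega)
  obtain ⟨l, hl, hld⟩ := Nat.exists_prime_and_dvd (n := 2 ^ (2 * m + 1) - 1) (by omega)
  haveI : Fact l.Prime := ⟨hl⟩
  obtain ⟨ζ, hζ⟩ := exists_prime_orderOf_dvd_card' (G := Kˣ) l (by rw [hc]; exact hld)
  refine ex2_tw hφ hl ?_ hζ
  rintro rfl
  omega

end Chev

end Cfsg.Agent.H701
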